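import Cfsg.Agent.Lib.AltSyl.Two

/-!
Sylow 2-subgroups of the symmetric groups, and direct decompositions of their even parts.
-/

set_option autoImplicit false
set_option linter.unusedSectionVars false

open Subgroup Equiv Equiv.Perm CfsgLib.LAE CfsgLib.NatSyl CfsgLib.AltAut CfsgLib.Comp

namespace CfsgLib.AltSyl

variable {α : Type*} [Fintype α] [DecidableEq α] {S K L A B : Subgroup (Perm α)} {τ : Perm α}

/-- An invariant set. -/
def Inv (K : Subgroup (Perm α)) (D : Finset α) : Prop := ∀ g ∈ K, ∀ x, g x ∈ D ↔ x ∈ D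

theorem Inv.of {D : Finset α} (h : ∀ g ∈ K, ∀ x ∈ D, g x ∈ D) : Inv K D := fun g hg x =>
  ⟨fun e => by simpa using h _ (K.inv_mem hg) _ e, h g hg x⟩

theorem Inv.sdiff {D D' : Finset α} (h : Inv K D) (h' : Inv K D') : Inv K (D \ D') :=
  fun g hg x => by rw [Finset.mem_sdiff, Finset.mem_sdiff, h g hg, h' g hg]

theorem Inv.inter {D D' : Finset α} (h : Inv K D) (h' : Inv K D') : Inv K (D ∩ D') :=
  fun g hg x => by rw [Finset.mem_inter, Finset.mem_inter, h g hg, h' g hg]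

theorem Inv.dvd_card {m : ℕ} {D : Finset α} (h : Inv K D) (hm : ∀ x ∈ D, m ∣ (orb K x).card) :
    m ∣ D.card := by
  induction D using Finset.strongInduction with
  | H D ih =>
    rcases D.eq_empty_or_nonempty with rfl | ⟨x, hx⟩
    · simp
    have h1 := orb_subset h hx
    rw [← Finset.card_sdiff_add_card_eq_card h1]
    exact dvd_add (ih _ (Finset.sdiff_ssubset h1 ⟨x, self_mem_orb x⟩) (h.sdiff (orb_inv x))
      fun y hy => hm y (Finset.mem_sdiff.1 hy).1) (hm x hx)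

/-- The stabilizer of a set. -/
def stabS (D : Finset α) : Subgroup (Perm α) where
  carrier := {g | ∀ x, g x ∈ D ↔ x ∈ D}
  one_mem' := fun _ => Iff.rfl
  mul_mem' := fun ha hb x => (ha _).trans (hb x)
  inv_mem' := fun {a} ha x => by rw [← ha]; simp

theorem eq_one_of_even {g : Perm α} (hg : g ∈ alternatingGroup α) {x y : α}
    (h : ∀ z, z ≠ x → z ≠ y → g z = z) : g = 1 := by
  have h1 : g.support ⊆ {x, y} := fun z hz => by
    by_contra hc
    simp only [Finset.mem_insert, Finset.mem_singleton, not_or] at hc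
    exact mem_support.1 hz (h z hc.1 hc.2)
  have h2 := (Finset.card_le_card h1).trans Finset.card_le_two
  by_contra h3
  have h4 := mt card_support_le_one.1 h3
  have := (card_support_eq_two.1 (show g.support.card = 2 by omega)).sign_eq
  rw [mem_alternatingGroup.1 hg] at this
  exact absurd this (by decide)

theorem four_dvd_support {g : Perm α} (hg : g ∈ alternatingGroup α) (h2 : g ^ 2 = 1) :
    4 ∣ g.support.card := by
  have h := sign_of_pow_two_eq_one h2
  have h1 : Fintype.card (Function.fixedPoints g) = g.supportᶜ.card := by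
    rw [Fintype.card_subtype]
    congr 1
    ext x
    simp [Function.IsFixedPt]
  have h3 := Finset.card_le_univ g.support
  have h4 := two_dvd_card_support h2
  rw [mem_alternatingGroup.1 hg, h1, Finset.card_compl, Nat.sub_sub_self h3] at h
  have := (neg_one_pow_eq_one_iff_even (by decide)).1 h.symm
  obtain ⟨k, hk⟩ := this
  omega

theorem not_three (hS : IsPGroup 2 S) {x y z : α} (h1 : x ≠ y) (h2 : x ≠ z) (h3 : y ≠ z) :
    tc x y z ∉ S := fun h => by
  obtain ⟨k, hk⟩ := isPGroup_iff_forall_mem.1 hS _ h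
  have := orderOf_dvd_of_pow_eq_one hk
  rw [(isThreeCycle_tc h1 h2 h3).orderOf] at this
  exact absurd (Nat.Prime.dvd_of_dvd_pow Nat.prime_three this) (by norm_num)

/-- A Sylow 2-subgroup of the symmetric group with its transpositions. -/
structure Syl (S : Subgroup (Perm α)) (τ : Perm α) : Prop extends Tau τ where
  syl : IsSylowIn 2 S ⊤
  le : base τ ≤ S

/-- `K` fixes the block through `x`. -/
def FixB (τ : Perm α) (K : Subgroup (Perm α)) (x : α) : Prop := ∀ g ∈ K, g x = x ∨ g x = τ x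

namespace Syl

theorem tt (h : Syl S τ) (x : α) : tt τ x ∈ S := h.le (h.tt_mem x)

theorem comm_aux (h : Syl S τ) {g : Perm α} (hg : g ∈ S) {x : α} (hx : τ x ≠ x) :
    g (τ x) = τ (g x) := by
  have h1 : swap (g x) (g (τ x)) ∈ S := by
    rw [swap_apply_apply]; exact S.mul_mem (S.mul_mem hg (h.tt x)) (S.inv_mem hg)
  have h2 := g.injective.ne hx
  by_contra hn
  by_cases h3 : τ (g x) = g x
  · refine not_three h.syl.isPGroup h2.symm ?_ ?_ (S.mul_mem h1 (h.tt (g (τ x))))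
    · exact fun e => h2 (by rw [← h3, e, h.app])
    · exact fun e => h2 (h.fix_eq e.symm h3)
  · rw [swap_comm] at h1
    exact not_three h.syl.isPGroup h2 hn (Ne.symm h3) (S.mul_mem h1 (h.tt (g x)))

theorem comm (h : Syl S τ) {g : Perm α} (hg : g ∈ S) (x : α) : g (τ x) = τ (g x) := by
  by_cases hx : τ x = x
  · by_contra hn
    rw [hx] at hn
    have := h.comm_aux (S.inv_mem hg) (Ne.symm hn)
    rw [Perm.inv_eq_iff_eq] at this
    exact hn (by rw [this]; simp [hx])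
  · exact h.comm_aux hg hx

theorem inv_support (h : Syl S τ) : Inv S τ.support := fun g hg =>
  mem_of_commute (Equiv.ext (h.comm hg))

theorem exists_res (h : Syl S τ) {D : Finset α} (hD : Inv S D) {g : Perm α} (hg : g ∈ S) :
    ∃ r ∈ S, (∀ x ∈ D, r x = g x) ∧ ∀ x ∉ D, r x = x := by
  let K : Subgroup (Perm α) :=
    { carrier := {k | ∃ a ∈ S, ∃ b ∈ S, (∀ x ∈ D, k x = a x) ∧ ∀ x ∉ D, k x = b x}
      one_mem' := ⟨1, S.one_mem, 1, S.one_mem, fun _ _ => rfl, fun _ _ => rfl⟩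
      mul_mem' := by
        rintro k k' ⟨a, ha, b, hb, h1, h2⟩ ⟨a', ha', b', hb', h3, h4⟩
        refine ⟨_, S.mul_mem ha ha', _, S.mul_mem hb hb', fun x hx => ?_, fun x hx => ?_⟩
        · rw [Perm.mul_apply, h3 x hx, h1 _ ((hD _ ha' x).2 hx), Perm.mul_apply]
        · rw [Perm.mul_apply, h4 x hx, h2 _ (mt (hD _ hb' x).1 hx), Perm.mul_apply]
      inv_mem' := by
        rintro k ⟨a, ha, b, hb, h1, h2⟩
        refine ⟨_, S.inv_mem ha, _, S.inv_mem hb, fun x hx => ?_, fun x hx => ?_⟩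
        · rw [Perm.inv_eq_iff_eq, h1 _ ((hD _ (S.inv_mem ha) x).2 hx)]; simp
        · rw [Perm.inv_eq_iff_eq, h2 _ (mt (hD _ (S.inv_mem hb) x).1 hx)]; simp }
  obtain ⟨N, hN⟩ := h.syl.isPGroup.exists_card_eq
  have hp : ∀ a ∈ S, a ^ 2 ^ N = 1 := fun a ha => by
    rw [← hN]; exact congrArg Subtype.val (pow_card_eq_one' (x := (⟨a, ha⟩ : S)))
  have key : ∀ (k a : Perm α) (p : α → Prop), (∀ x, p x → p (a x)) → (∀ x, p x → k x = a x) →
      ∀ n : ℕ, ∀ x, p x → (k ^ n) x = (a ^ n) x := by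
    intro k a p h1 h2 n
    induction n with
    | zero => exact fun _ _ => rfl
    | succ n ih =>
      intro x hx
      rw [pow_succ, pow_succ, Perm.mul_apply, Perm.mul_apply, h2 x hx, ih _ (h1 x hx)]
  have hK : K = S := h.syl.eq_of_le K (isPGroup_iff_forall_mem.2 (by
    rintro k ⟨a, ha, b, hb, h1, h2⟩
    refine ⟨N, Equiv.ext fun x => ?_⟩
    by_cases hx : x ∈ D
    · rw [key k a (· ∈ D) (fun x => (hD a ha x).2) h1 _ x hx, hp a ha]
    · rw [key k b (· ∉ D) (fun x => mt (hD b hb x).1) h2 _ x hx, hp b hb]))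
    (fun a ha => ⟨a, ha, a, ha, fun _ _ => rfl, fun _ _ => rfl⟩) le_top
  have h1 := fun x (hx : x ∈ D) => ofSubtype_subtypePerm_of_mem (hD g hg) hx
  have h2 := fun x (hx : x ∉ D) => ofSubtype_subtypePerm_of_not_mem (hD g hg) hx
  exact ⟨_, hK ▸ ⟨g, hg, 1, S.one_mem, h1, h2⟩, h1, h2⟩

theorem four (h : Syl S τ) (h1 : base τ ≤ K) (h2 : K ≤ S) {D : Finset α} (hD : Inv K D)
    (hU : D ⊆ τ.support) (hf : ∀ x ∈ D, ¬ FixB τ K x) : 4 ∣ D.card := by
  refine hD.dvd_card fun x hx => ?_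
  obtain ⟨k, hk⟩ := card_orb (h.syl.isPGroup.to_le h2) x
  obtain ⟨g, hg⟩ := not_forall.1 (hf x hx)
  rw [Classical.not_imp, not_or] at hg
  have : 2 < (orb K x).card := Finset.two_lt_card_iff.2 ⟨x, τ x, g x, self_mem_orb x,
    mem_orb.2 ⟨τ, h1 (self_mem_base τ), rfl⟩, mem_orb.2 ⟨g, hg.1, rfl⟩,
    (mem_support.1 (hU hx)).symm, Ne.symm hg.2.1, Ne.symm hg.2.2⟩
  rw [hk] at this ⊢
  refine pow_dvd_pow 2 (show 2 ≤ k from ?_)
  by_contra hc
  have : k = 0 ∨ k = 1 := by omega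
  rcases this with rfl | rfl <;> omega

theorem exists_even (h : Syl S τ) {g : Perm α} (hg : g ∈ S) {y : α} (hy : τ y ≠ y) :
    ∃ g' ∈ S ⊓ alternatingGroup α, g' = g ∨ g' = g * AltSyl.tt τ y := by
  rcases Int.units_eq_one_or (sign g) with e | e
  · exact ⟨g, ⟨hg, e⟩, Or.inl rfl⟩
  · refine ⟨_, ⟨S.mul_mem hg (h.tt y), mem_alternatingGroup.2 ?_⟩, Or.inr rfl⟩
    simp [e, AltSyl.tt, hy.symm]

theorem exists_even' (h : Syl S τ) {g : Perm α} (hg : g ∈ S) {y : α} (hy : τ y ≠ y) :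
    ∃ g' ∈ S ⊓ alternatingGroup α, g y = g' y ∨ g y = τ (g' y) := by
  obtain ⟨g', h1, rfl | rfl⟩ := h.exists_even hg hy
  · exact ⟨g', h1, Or.inl rfl⟩
  · exact ⟨_, h1, Or.inr (by simp [AltSyl.tt, h.comm hg, h.app])⟩

theorem tt2 (h : Syl S τ) {x y : α} (hx : τ x ≠ x) (hy : τ y ≠ y) :
    AltSyl.tt τ x * AltSyl.tt τ y ∈ S ⊓ alternatingGroup α :=
  ⟨S.mul_mem (h.tt x) (h.tt y), tt_mul_mem hx hy⟩

theorem mem_base_of (h : Syl S τ) (h6 : 6 ≤ Fintype.card α) {z : Perm α} (hz : z ∈ S)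
    (hc : ∀ x y, τ x ≠ x → τ y ≠ y → Commute z (AltSyl.tt τ x * AltSyl.tt τ y)) : z ∈ base τ := by
  rw [h.mem_base]
  intro x
  by_cases hx : τ x = x
  · exact Or.inl (h.fix_eq (by rw [← h.comm hz, hx]) hx)
  obtain ⟨y, w, y1, y2, y3, w1, w2, w3, k⟩ := h.exists_two h6 x
  refine k _ ?_ ?_
  · rw [← h.support_eq hx y1 y2 y3, mem_of_commute (hc x y hx y1), h.support_eq hx y1 y2 y3]; simp
  · rw [← h.support_eq hx w1 w2 w3, mem_of_commute (hc x w hx w1), h.support_eq hx w1 w2 w3]; simp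

theorem mv_tau (h : Syl S τ) {z : Perm α} (hz : z ∈ S) {x : α} : z (τ x) = τ x ↔ z x = x := by
  rw [h.comm hz, τ.injective.eq_iff]

theorem fixB_tau (h : Syl S τ) (hK : K ≤ S) {x : α} (hx : FixB τ K x) : FixB τ K (τ x) :=
  fun g hg => by
    rw [h.comm (hK hg)]
    exact (hx g hg).imp (congrArg τ) (congrArg τ)

end Syl

/-- A direct decomposition of the even part of `S`. -/
structure Dc (S A B : Subgroup (Perm α)) : Prop where
  comm : ∀ a ∈ A, ∀ b ∈ B, a * b = b * a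
  inf : A ⊓ B = ⊥
  sup : A ⊔ B = S ⊓ alternatingGroup α

namespace Dc

theorem symm (d : Dc S A B) : Dc S B A :=
  ⟨fun b hb a ha => (d.comm a ha b hb).symm, inf_comm A B ▸ d.inf, sup_comm A B ▸ d.sup⟩

theorem le (d : Dc S A B) : A ≤ S ⊓ alternatingGroup α := d.sup ▸ le_sup_left

theorem leS (d : Dc S A B) : A ≤ S := d.le.trans inf_le_left

theorem dec (d : Dc S A B) {g : Perm α} (hg : g ∈ S ⊓ alternatingGroup α) :
    ∃ a ∈ A, ∃ b ∈ B, g = a * b :=
  (mem_sup_iff_of_left_le_normalizer (le_normalizer_iff.2 fun a ha b hb => by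
    rw [d.comm a ha b hb, mul_inv_cancel_right]; exact hb)).1 (d.sup ▸ hg)

theorem conj (d : Dc S A B) {g a : Perm α} (hg : g ∈ S ⊓ alternatingGroup α) (ha : a ∈ A) :
    g * a * g⁻¹ ∈ A := by
  obtain ⟨b, hb, c, hc, rfl⟩ := d.symm.dec hg
  have h1 := A.mul_mem (A.mul_mem hc ha) (A.inv_mem hc)
  rw [show b * c * a * (b * c)⁻¹ = b * (c * a * c⁻¹) * b⁻¹ by group, ← d.comm _ h1 b hb,
    mul_inv_cancel_right]
  exact h1

theorem eq_one (d : Dc S A B) {g : Perm α} (ha : g ∈ A) (hb : g ∈ B) : g = 1 :=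
  mem_bot.1 (d.inf ▸ ⟨ha, hb⟩)

theorem exists_central (d : Dc S A B) (hS : IsPGroup 2 S) (hA : A ≠ ⊥) :
    ∃ z ∈ A, z ≠ 1 ∧ ∀ g ∈ S ⊓ alternatingGroup α, Commute z g := by
  have := (nontrivial_iff_ne_bot A).2 hA
  have := (hS.to_le d.leS).center_nontrivial
  obtain ⟨z, hz⟩ := exists_ne (1 : center A)
  refine ⟨z.1.1, z.1.2, fun e => hz (Subtype.ext (Subtype.ext e)), fun g hg => ?_⟩
  obtain ⟨a, ha, b, hb, rfl⟩ := d.dec hg
  exact Commute.mul_right (congrArg Subtype.val (mem_center_iff.1 z.2 ⟨a, ha⟩)).symm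
    (d.comm _ z.1.2 b hb)

theorem not_trans (d : Dc S A B) (h : Syl S τ) (h6 : 6 ≤ Fintype.card α) (hA : A ≠ ⊥) (hB : B ≠ ⊥)
    {W : Finset α} (hW : W ⊆ τ.support) {f : α} (hf : ∀ x ∈ τ.support, x ∉ W → x = f ∨ x = τ f)
    (ht : ∀ x ∈ W, ∀ y ∈ W, ∃ g ∈ S, g x = y) : False := by
  have one : ∀ z ∈ S ⊓ alternatingGroup α, (∀ x ∈ W, z x = x) → z = 1 := fun z hz hx =>
    eq_one_of_even hz.2 (x := f) (y := τ f) fun u h1 h2 => by
      by_cases hu : u ∈ τ.support
      · exact hx u (by by_contra hn; exact (hf u hu hn).elim h1 h2)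
      · rw [notMem_support] at hu
        exact h.fix_eq (by rw [← h.comm hz.1, hu]) hu
  have key : ∀ z ∈ S ⊓ alternatingGroup α, z ≠ 1 → (∀ g ∈ S ⊓ alternatingGroup α, Commute z g) →
      ∀ x ∈ W, z x = τ x := by
    intro z hz h1 hc x hx
    have hb := h.mem_base_of h6 hz.1 fun x y a b => hc _ (h.tt2 a b)
    refine (h.mem_base.1 hb x).resolve_left fun e => h1 (one z hz fun y hy => ?_)
    obtain ⟨g, hg, rfl⟩ := ht x hx y hy
    obtain ⟨g', hg', e'⟩ := h.exists_even' hg (mem_support.1 (hW hx))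
    have : z (g' x) = g' x := by rw [← Perm.mul_apply, (hc g' hg').eq, Perm.mul_apply, e]
    rcases e' with e' | e' <;> rw [e']
    · exact this
    · exact (h.mv_tau hz.1).2 this
  obtain ⟨a, ha, a1, ac⟩ := d.exists_central h.syl.isPGroup hA
  obtain ⟨b, hb, b1, bc⟩ := d.symm.exists_central h.syl.isPGroup hB
  have : a⁻¹ * b = 1 := one _ (mul_mem (inv_mem (d.le ha)) (d.symm.le hb)) fun x hx => by
    rw [Perm.mul_apply, key b (d.symm.le hb) b1 bc x hx, ← key a (d.le ha) a1 ac x hx]; simp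
  exact a1 (d.eq_one ha (inv_mul_eq_one.1 this ▸ hb))

theorem mem_base (d : Dc S A B) (h : Syl S τ) (h6 : 6 ≤ Fintype.card α) {a b : Perm α} (ha : a ∈ A)
    (hb : b ∈ B) (hab : a * b ∈ base τ) : a ∈ base τ := by
  refine h.mem_base_of h6 (d.leS ha) fun x y hx hy => ?_
  have hu := h.tt2 hx hy
  have hu' := mul_mem (h.tt_mem x) (h.tt_mem y)
  generalize AltSyl.tt τ x * AltSyl.tt τ y = u at *
  have h1 : a * (u * a⁻¹ * u⁻¹) ∈ A := A.mul_mem ha (d.conj hu (A.inv_mem ha))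
  have h2 : b⁻¹ * (u * b * u⁻¹) ∈ B := B.mul_mem (B.inv_mem hb) (d.symm.conj hu hb)
  have e : a * (u * a⁻¹ * u⁻¹) = b⁻¹ * (u * b * u⁻¹) := by
    have e1 := base_comm hab hu'
    have e2 := d.comm a ha b hb
    calc _ = b⁻¹ * (b * a * u) * a⁻¹ * u⁻¹ := by group
      _ = b⁻¹ * (u * (b * a)) * a⁻¹ * u⁻¹ := by rw [← e2, e1]
      _ = _ := by group
  have := d.eq_one h1 (e ▸ h2)
  change a * u = u * a
  calc _ = a * (u * a⁻¹ * u⁻¹) * (u * a) := by group
    _ = _ := by rw [this, one_mul]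

theorem two (d : Dc S A B) (h : Syl S τ) (h6 : 6 ≤ Fintype.card α) {D : Finset α} (hD : Inv S D)
    {x y : α} (hx : τ x ≠ x) (hy : τ y ≠ y) (h1 : x ∈ D) (h2 : y ∉ D) :
    ∃ a ∈ A ⊓ base τ, ∃ b ∈ B ⊓ base τ,
      ¬ (4 ∣ (a.support ∩ D).card ∧ 4 ∣ (b.support ∩ D).card) := by
  obtain ⟨a, ha, b, hb, e⟩ := d.dec (h.tt2 hx hy)
  have hm := mul_mem (h.tt_mem x) (h.tt_mem y)
  have ha' := d.mem_base h h6 ha hb (e ▸ hm)
  have hb' := d.symm.mem_base h h6 hb ha (d.comm a ha b hb ▸ e ▸ hm)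
  refine ⟨a, ⟨ha, ha'⟩, b, ⟨hb, hb'⟩, ?_⟩
  have hτ := h.le (self_mem_base τ)
  have e1 : (a * b) x = τ x := e ▸ (h.tt_tt_apply (y := y) (fun e => h2 (e ▸ h1))
    (fun e => h2 (e ▸ (hD τ hτ x).2 h1))).1
  have e2 : ∀ z ∈ D, z ≠ x → z ≠ τ x → (a * b) z = z := fun z hz z1 z2 => by
    rw [← e, ← notMem_support]
    intro hz'
    have := support_tt_tt τ x y hz'
    simp only [Finset.mem_insert, Finset.mem_singleton, z1, z2, false_or] at this
    rcases this with rfl | rfl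
    · exact h2 hz
    · exact h2 ((hD τ hτ y).1 hz)
  have key : ∀ a b : Perm α, a ∈ base τ → b ∈ base τ → (a * b) x = τ x →
      (∀ z ∈ D, z ≠ x → z ≠ τ x → (a * b) z = z) → b x = x →
      (a.support ∩ D).card = (b.support ∩ D).card + 2 := by
    intro a b ha hb e1 e2 hbx
    have hbx' := (h.mv_tau (h.le hb)).2 hbx
    have hax : a x ≠ x := by rw [Perm.mul_apply, hbx] at e1; rwa [e1]
    have : a.support ∩ D = insert x (insert (τ x) (b.support ∩ D)) := by
      ext z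
      simp only [Finset.mem_inter, mem_support, Finset.mem_insert]
      by_cases z1 : z = x
      · simp [z1, hax, h1]
      by_cases z2 : z = τ x
      · simp [z2, h.mv_tau (h.le ha), hax, hD τ hτ, h1]
      simp only [z1, z2, false_or, and_congr_left_iff, not_iff_not]
      intro hz
      have e3 := e2 z hz z1 z2
      constructor
      · intro e4; exact a.injective (e3.trans e4.symm)
      · intro e4; rwa [Perm.mul_apply, e4] at e3
    rw [this, Finset.card_insert_of_notMem (by simp [hbx, hx.symm]),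
      Finset.card_insert_of_notMem (by simp [hbx'])]
  rcases h.mem_base.1 hb' x with e3 | e3
  · have := key a b ha' hb' e1 e2 e3
    omega
  · rw [d.comm a ha b hb] at e1 e2
    have := key b a hb' ha' e1 e2 (b.injective (by rw [e3, ← e1]; rfl))
    omega

theorem fixB_inv (d : Dc S A B) (h : Syl S τ) {x : α} (hx : τ x ≠ x) (hf : FixB τ A x)
    {g : Perm α} (hg : g ∈ S) : FixB τ A (g x) := by
  obtain ⟨g', hg', e⟩ := h.exists_even' hg hx
  have : FixB τ A (g' x) := fun a ha => by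
    have := hf _ (d.conj (inv_mem hg') ha)
    rwa [inv_inv, Perm.mul_apply, Perm.mul_apply, Perm.inv_eq_iff_eq, Perm.inv_eq_iff_eq,
      h.comm hg'.1] at this
  rcases e with e | e <;> rw [e]
  · exact this
  · exact h.fixB_tau d.leS this

theorem exists_fix (d : Dc S A B) (h : Syl S τ) {D : Finset α} (hD : Inv S D)
    {a : Perm α} (ha : a ∈ A ⊓ base τ) (h4 : ¬ 4 ∣ (a.support ∩ D).card) :
    ∃ x ∈ D, τ x ≠ x ∧ FixB τ B x := by
  have hU : a.support ∩ D ⊆ τ.support := fun x hx => mem_support.2 fun e =>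
    mem_support.1 (Finset.mem_inter.1 hx).1 ((h.mem_base.1 ha.2 x).elim id fun e' => e'.trans e)
  have k : ∀ g ∈ S, Commute g a → g ∈ S ⊓ stabS (a.support ∩ D) := fun g hg hc =>
    ⟨hg, fun x => by rw [Finset.mem_inter, Finset.mem_inter, mem_of_commute hc, hD g hg]⟩
  by_contra hn
  refine h4 (h.four (K := S ⊓ stabS (a.support ∩ D))
    (fun g hg => k g (h.le hg) (base_comm hg ha.2)) inf_le_left (fun g hg => hg.2) hU
    fun x hx hf => hn ⟨x, (Finset.mem_inter.1 hx).2, mem_support.1 (hU hx), fun b hb =>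
      hf b (k b (d.symm.leS hb) (d.comm a ha.1 b hb).symm)⟩)

theorem inv_supp (d : Dc S A B) (h : Syl S τ) {D : Finset α} (hD : Inv S D) (hU : D ⊆ τ.support)
    (hf : ∀ x ∈ D, FixB τ B x) {b : Perm α} (hb : b ∈ B) : Inv S (b.support ∩ D) := by
  refine Inv.of fun g hg x hx => ?_
  rw [Finset.mem_inter, mem_support] at hx ⊢
  refine ⟨?_, (hD g hg x).2 hx.2⟩
  obtain ⟨g', hg', e⟩ := h.exists_even' hg (mem_support.1 (hU hx.2))
  obtain ⟨a', ha', b', hb', rfl⟩ := d.dec hg'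
  have h1 : b (b' x) ≠ b' x := by
    rcases hf x hx.2 b' hb' with e | e <;> rw [e]
    · exact hx.1
    · exact mt (h.mv_tau (d.symm.leS hb)).1 hx.1
  have h2 : b ((a' * b') x) ≠ (a' * b') x := by
    rw [Perm.mul_apply, ← Perm.mul_apply b, ← d.comm a' ha' b hb, Perm.mul_apply]
    exact a'.injective.ne h1
  rcases e with e | e <;> rw [e]
  · exact h2
  · exact mt (h.mv_tau (d.symm.leS hb)).1 h2

theorem not_all (d : Dc S A B) (h : Syl S τ) (hB : B ≠ ⊥) {ρ : Perm α} (hρ : ρ ∈ S)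
    (hρ2 : ρ * ρ = τ) {O : Finset α} (hO : Inv S O) {x y : α} (hx : τ x ≠ x) (hy : τ y ≠ y)
    (h1 : x ∈ O) (h2 : y ∉ O) (hf : ∀ x ∈ τ.support, FixB τ B x) : False := by
  have hb : B ≤ base τ := fun b hb => h.mem_base.2 fun u => by
    by_cases hu : τ u = u
    · exact Or.inl (h.fix_eq (by rw [← h.comm (d.symm.leS hb), hu]) hu)
    · exact hf u (mem_support.2 hu) b hb
  have sq : ∀ g ∈ S ⊓ alternatingGroup α, g * g ∈ A := fun g hg => by
    obtain ⟨a, ha, b, hb', rfl⟩ := d.dec hg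
    have : b * b = 1 := by rw [← pow_two]; exact base_pow (by rw [pow_two, h.sq]) (hb hb')
    rw [mul_assoc, ← mul_assoc b, ← d.comm a ha b hb', mul_assoc, this, mul_one]
    exact A.mul_mem ha ha
  have key : ∀ D, Inv S D → ∀ y, τ y ≠ y → y ∉ D →
      ∃ c ∈ A, (∀ x ∈ D, c x = τ x) ∧ ∀ x ∉ D, c x = x := by
    intro D hD y hy hyD
    obtain ⟨r, hr, r1, r2⟩ := h.exists_res hD hρ
    refine ⟨r * r, ?_, fun x hx => ?_, fun x hx => by rw [Perm.mul_apply, r2 x hx, r2 x hx]⟩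
    · obtain ⟨g, hg, rfl | rfl⟩ := h.exists_even hr hy
      · exact sq g hg
      · have e : r * AltSyl.tt τ y * r⁻¹ = AltSyl.tt τ y := by
          rw [AltSyl.tt, ← swap_apply_apply, h.comm hr, r2 y hyD]
        have := sq _ hg
        rwa [mul_assoc, ← mul_assoc _ r, ← mul_inv_eq_iff_eq_mul.1 e, mul_assoc, AltSyl.tt,
          swap_mul_self, mul_one] at this
    · rw [Perm.mul_apply, r1 x hx, r1 _ ((hD ρ hρ x).2 hx), ← hρ2, Perm.mul_apply]
  obtain ⟨⟨b, hbB⟩, hb1⟩ := ne_bot_iff_exists_ne_one.1 hB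
  apply hb1
  refine Subtype.ext (d.eq_one ?_ hbB)
  have hJ := d.inv_supp h h.inv_support subset_rfl hf hbB
  by_cases hc : ∃ y, τ y ≠ y ∧ b y = y
  · obtain ⟨y, y1, y2⟩ := hc
    obtain ⟨c, hc, c1, c2⟩ := key _ hJ y y1 (by simp [y2])
    convert hc
    ext u
    by_cases hu : u ∈ b.support ∩ τ.support
    · rw [c1 u hu]
      exact (h.mem_base.1 (hb hbB) u).resolve_left (mem_support.1 (Finset.mem_inter.1 hu).1)
    · rw [c2 u hu]
      by_contra hn
      exact hu (Finset.mem_inter.2 ⟨mem_support.2 hn, mem_support.2 fun e =>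
        hn ((h.mem_base.1 (hb hbB) u).elim id fun e' => e'.trans e)⟩)
  · push Not at hc
    obtain ⟨c, hc1, c1, c2⟩ := key _ hO y hy h2
    obtain ⟨c', hc2, c3, c4⟩ := key _ (h.inv_support.sdiff hO) x hx (by simp [h1])
    convert A.mul_mem hc1 hc2
    ext u
    have hbu : b u = τ u := (h.mem_base.1 (hb hbB) u).elim
      (fun e => by by_contra hn; exact hc u (fun e' => hn (e.trans e'.symm)) e) id
    rw [hbu, Perm.mul_apply]
    by_cases hu : u ∈ O
    · rw [c4 u (by simp [hu]), c1 u hu]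
    · by_cases hu' : τ u = u
      · rw [c4 u (by simp [hu']), c2 u hu, hu']
      · rw [c3 u (by simp [hu, hu']), c2 _ (mt (hO τ (h.le (self_mem_base τ)) u).1 hu)]

theorem false_of_rho (d : Dc S A B) (h : Syl S τ) (h6 : 6 ≤ Fintype.card α) (hA : A ≠ ⊥)
    (hB : B ≠ ⊥) {ρ : Perm α} (hρ : ρ ∈ S) (hρ2 : ρ * ρ = τ) : False := by
  classical
  have nf : ∀ x ∈ τ.support, ¬ FixB τ S x := fun x hx hf => by
    apply mem_support.1 hx
    rcases hf ρ hρ with e | e
    · rw [← hρ2, Perm.mul_apply, e, e]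
    · rw [← hρ2, Perm.mul_apply] at e
      rw [← hρ2, Perm.mul_apply, ← ρ.injective e, ← ρ.injective e]
  obtain ⟨x0, hx0, -⟩ := h.exists_moved (s := ∅) (by simp; omega)
  by_cases ht : ∀ x ∈ τ.support, ∀ y ∈ τ.support, ∃ g ∈ S, g x = y
  · exact d.not_trans h h6 hA hB subset_rfl (f := x0) (fun x a b => absurd a b) ht
  push Not at ht
  obtain ⟨x, hx, y, hy, hxy⟩ := ht
  have hyO : y ∉ orb S x := fun e => by
    obtain ⟨g, hg, e⟩ := mem_orb.1 e
    exact hxy g hg e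
  rw [mem_support] at hx hy
  have dich : ∀ u, τ u ≠ u → FixB τ A u ∨ FixB τ B u := by
    intro u hu
    obtain ⟨v, hv, hvO⟩ : ∃ v, τ v ≠ v ∧ v ∉ orb S u := by
      by_contra hn
      push Not at hn
      obtain ⟨g, hg, e⟩ := mem_orb.1 (hn x hx)
      obtain ⟨g', hg', e'⟩ := mem_orb.1 (hn y hy)
      exact hxy (g' * g⁻¹) (S.mul_mem hg' (S.inv_mem hg)) (by rw [← e, ← e']; simp)
    obtain ⟨a, ha, b, hb, h4⟩ := d.two h h6 (orb_inv u) hu hv (self_mem_orb u) hvO
    have back : ∀ w ∈ orb S u, ∃ g ∈ S, u = g w := fun w hw => by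
      obtain ⟨g, hg, rfl⟩ := mem_orb.1 hw
      exact ⟨g⁻¹, S.inv_mem hg, by simp⟩
    rcases not_and_or.1 h4 with h4 | h4
    · obtain ⟨w, w1, w2, w3⟩ := d.exists_fix h (orb_inv u) ha h4
      obtain ⟨g, hg, rfl⟩ := back w w1
      exact Or.inr (d.symm.fixB_inv h w2 w3 hg)
    · obtain ⟨w, w1, w2, w3⟩ := d.symm.exists_fix h (orb_inv u) hb h4
      obtain ⟨g, hg, rfl⟩ := back w w1
      exact Or.inl (d.fixB_inv h w2 w3 hg)
  let U := τ.support.filter (FixB τ B)
  have hU : Inv S U := Inv.of fun g hg u hu => by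
    rw [Finset.mem_filter] at hu ⊢
    exact ⟨(h.inv_support g hg u).2 hu.1, d.symm.fixB_inv h (mem_support.1 hu.1) hu.2 hg⟩
  by_cases h1 : ∀ u ∈ τ.support, FixB τ B u
  · exact d.not_all h hB hρ hρ2 (orb_inv x) hx hy (self_mem_orb x) hyO h1
  by_cases h2 : ∀ u ∈ τ.support, FixB τ A u
  · exact d.symm.not_all h hA hρ hρ2 (orb_inv x) hx hy (self_mem_orb x) hyO h2
  push Not at h1 h2
  obtain ⟨v, hv, hvB⟩ := h1
  obtain ⟨u, hu, huA⟩ := h2
  obtain ⟨a, ha, b, hb, h4⟩ := d.two h h6 hU (mem_support.1 hu) (mem_support.1 hv)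
    (Finset.mem_filter.2 ⟨hu, (dich u (mem_support.1 hu)).resolve_left huA⟩)
    (fun e => hvB (Finset.mem_filter.1 e).2)
  have four : ∀ D, Inv S D → D ⊆ τ.support → 4 ∣ D.card := fun D hD hD' =>
    h.four h.le le_rfl hD hD' fun x hx => nf x (hD' hx)
  refine h4 ⟨?_, four _ (d.inv_supp h hU (Finset.filter_subset _ _)
    (fun x hx => (Finset.mem_filter.1 hx).2) hb.1)
    (Finset.inter_subset_right.trans (Finset.filter_subset _ _))⟩
  have h5 := four _ (d.symm.inv_supp h (h.inv_support.sdiff hU) Finset.sdiff_subset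
    (fun x hx => (dich x (mem_support.1 (Finset.mem_sdiff.1 hx).1)).resolve_right fun e =>
      (Finset.mem_sdiff.1 hx).2 (Finset.mem_filter.2 ⟨(Finset.mem_sdiff.1 hx).1, e⟩)) ha.1)
    (Finset.inter_subset_right.trans Finset.sdiff_subset)
  have h7 := four_dvd_support (d.le ha.1).2 (base_pow (by rw [pow_two, h.sq]) ha.2)
  have h8 : a.support ∩ (τ.support \ U) = a.support \ U := by
    ext w
    simp only [Finset.mem_inter, Finset.mem_sdiff, mem_support, and_congr_right_iff,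
      and_iff_right_iff_imp]
    exact fun e _ e' => e ((h.mem_base.1 ha.2 w).elim id fun e'' => e''.trans e')
  have := Finset.card_sdiff_add_card_inter a.support U
  rw [h8] at h5
  omega

end Dc

theorem exists_rho (hS : IsSylowIn 2 S ⊤) (hn : Fintype.card α % 4 ≤ 1) :
    ∃ ρ ∈ S, Syl S (ρ * ρ) := by
  obtain ⟨σ, h4, hc, ht⟩ := exists_pow_prime (α := α) 4 (by norm_num)
  have h1 : (σ * σ).support = σ.support := by
    refine (support_mul_le σ σ).antisymm ?_ |>.trans (sup_idem _)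
    rw [sup_idem]
    intro x hx
    rw [mem_support]
    intro e
    have hc := isCycle_cycleOf σ (mem_support.1 hx)
    have h5 := cycleType_le_of_mem_cycleFactorsFinset (cycleOf_mem_cycleFactorsFinset_iff.2 hx)
    rw [hc.cycleType, ht, Multiset.singleton_le, ← hc.orderOf] at h5
    have h6 : σ.cycleOf x ^ 2 = 1 := (hc.pow_eq_one_iff' (x := x) (by
      rw [cycleOf_apply_self]; exact mem_support.1 hx)).2 (by
      rw [cycleOf_pow_apply_self, pow_two, e])
    have := orderOf_dvd_of_pow_eq_one h6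
    rw [Multiset.eq_of_mem_replicate h5] at this
    omega
  have h2 : Tau (σ * σ) := ⟨by rw [← h4]; simp [pow_succ, mul_assoc], by rw [h1, hc]; omega⟩
  obtain ⟨g, -, hg⟩ := hS.exists_conj_le (Q := zpowers σ ⊔ base (σ * σ)) (isPGroup_sup
    (IsPGroup.of_card_dvd_pow (n := 2) (by rw [Nat.card_zpowers, orderOf_dvd_iff_pow_eq_one]; exact h4))
    (isPGroup_iff_forall_mem.2 fun x hx => ⟨1, base_pow (by rw [pow_one, pow_two, h2.sq]) hx⟩)
    (by
      rw [zpowers_le]
      refine mem_normalizer_of_conjS_le (conjS_le_iff_forall.2 fun x hx => ?_)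
      simpa [mul_assoc] using conj_mem_base σ hx)) le_top
  refine ⟨_, hg (conj_mem_conjS.2 (mem_sup_left (mem_zpowers σ))), ?_⟩
  rw [conj_mul]
  exact ⟨h2.conj g, hS, fun x hx => hg (mem_conjS.2 (mem_sup_right (mem_base_conj g hx)))⟩

theorem Syl.exists_fixB (h : Syl S τ) (hn : 2 ≤ Fintype.card α % 4) :
    ∃ f, τ f ≠ f ∧ FixB τ S f := by
  by_contra hc
  have := h.four h.le le_rfl h.inv_support subset_rfl fun x hx hf => hc ⟨x, mem_support.1 hx, hf⟩
  rw [h.card] at this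
  omega

theorem Syl.inv_pair (h : Syl S τ) {f : α} (hf : FixB τ S f) : Inv S {f, τ f} :=
  Inv.of fun g hg x hx => by
    simp only [Finset.mem_insert, Finset.mem_singleton] at hx ⊢
    rcases hx with rfl | rfl
    · exact hf g hg
    · exact (h.fixB_tau le_rfl hf g hg).symm.imp_left fun e => e.trans (h.app f)

theorem Syl.exists_dc (h : Syl S τ) {f : α} (hf1 : τ f ≠ f) (hf : FixB τ S f) {x y : α}
    (hx : x ∈ τ.support \ {f, τ f}) (hy : y ∈ τ.support \ {f, τ f}) (hxy : y ∉ orb S x) :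
    ∃ A B, A ≠ ⊥ ∧ B ≠ ⊥ ∧ Dc S A B := by
  have hW := h.inv_support.sdiff (h.inv_pair hf)
  set W := τ.support \ {f, τ f} with hWd
  have hO : Inv S (orb S x) := orb_inv x
  have hO' := hW.sdiff hO
  have hOW := orb_subset hW hx
  have hτ := h.le (self_mem_base τ)
  let fx : Finset α → Subgroup (Perm α) := fun D =>
    S ⊓ alternatingGroup α ⊓ fixingSubgroup (Perm α) (D : Set α)
  have mfx : ∀ D g, g ∈ fx D ↔ g ∈ S ⊓ alternatingGroup α ∧ ∀ u ∈ D, g u = u := fun D g => by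
    simp [fx, mem_fixingSubgroup_iff]
  have out : ∀ g ∈ S, ∀ u ∉ W, g u = u ∨ g u = τ u := fun g hg u hu => by
    by_cases h1 : τ u = u
    · exact Or.inl (h.fix_eq (by rw [← h.comm hg, h1]) h1)
    · have : u = f ∨ u = τ f := by
        by_contra hn
        exact hu (by simp [hWd, h1, not_or.1 hn])
      rcases this with rfl | rfl
      · exact hf g hg
      · exact h.fixB_tau le_rfl hf g hg
  have ttf : ∀ u ∈ W, AltSyl.tt τ f u = u := fun u hu => by
    simp only [hWd, Finset.mem_sdiff, Finset.mem_insert, Finset.mem_singleton, not_or] at hu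
    exact swap_apply_of_ne_of_ne hu.2.1 hu.2.2
  have ne : ∀ D D' : Finset α, Inv S D → D' ⊆ W → ∀ u ∈ W, u ∈ D → (∀ w ∈ D', w ∉ D) →
      fx D' ≠ ⊥ := by
    intro D D' hD hD' u hu huD hd e
    have hu' := mem_support.1 (Finset.mem_sdiff.1 hu).1
    have : AltSyl.tt τ u * AltSyl.tt τ f ∈ fx D' := (mfx _ _).2 ⟨h.tt2 hu' hf1, fun w hw => by
      rw [Perm.mul_apply, ttf w (hD' hw)]
      exact swap_apply_of_ne_of_ne (fun e => hd w hw (e ▸ huD))
        (fun e => hd w hw (e ▸ (hD τ hτ u).2 huD))⟩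
    rw [e, mem_bot] at this
    have := Equiv.congr_fun this u
    rw [Perm.mul_apply, ttf u hu, AltSyl.tt, swap_apply_left] at this
    exact hu' this
  refine ⟨fx (W \ orb S x), fx (orb S x),
    ne _ _ hO Finset.sdiff_subset x hx (self_mem_orb x) fun w hw => (Finset.mem_sdiff.1 hw).2,
    ne _ _ hO' hOW y hy (Finset.mem_sdiff.2 ⟨hy, hxy⟩) fun w hw e => (Finset.mem_sdiff.1 e).2 hw,
    fun a ha b hb => ?_, ?_, le_antisymm (sup_le inf_le_left inf_le_left) fun g hg => ?_⟩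
  · rw [mfx] at ha hb
    ext u
    rw [Perm.mul_apply, Perm.mul_apply]
    by_cases h1 : u ∈ orb S x
    · rw [hb.2 u h1, hb.2 _ ((hO a ha.1.1 u).2 h1)]
    by_cases h2 : u ∈ W
    · have h3 := Finset.mem_sdiff.2 ⟨h2, h1⟩
      rw [ha.2 u h3, ha.2 _ ((hO' b hb.1.1 u).2 h3)]
    · rcases out a ha.1.1 u h2 with e | e <;> rcases out b hb.1.1 u h2 with e' | e' <;>
        simp only [e, e', h.comm ha.1.1, h.comm hb.1.1]
  · rw [eq_bot_iff]
    intro g hg
    have ha := (mfx _ _).1 (mem_inf.1 hg).1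
    have hb := (mfx _ _).1 (mem_inf.1 hg).2
    refine eq_one_of_even ha.1.2 (x := f) (y := τ f) fun u u1 u2 => ?_
    by_cases h1 : u ∈ orb S x
    · exact hb.2 u h1
    by_cases h2 : τ u = u
    · exact h.fix_eq (by rw [← h.comm ha.1.1, h2]) h2
    · exact ha.2 u (by simp [hWd, h1, h2, u1, u2])
  · obtain ⟨r, hr, r1, r2⟩ := h.exists_res hO hg.1
    obtain ⟨a, ha, e⟩ := h.exists_even hr hf1
    have e' : ∀ u ∈ W, a u = r u := fun u hu => by
      rcases e with rfl | rfl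
      · rfl
      · rw [Perm.mul_apply, ttf u hu]
    rw [← mul_inv_cancel_left a g]
    refine mul_mem_sup ((mfx _ _).2 ⟨ha, fun u hu => ?_⟩)
      ((mfx _ _).2 ⟨mul_mem (inv_mem ha) hg, fun u hu => ?_⟩)
    · rw [e' u (Finset.mem_sdiff.1 hu).1, r2 u (Finset.mem_sdiff.1 hu).2]
    · rw [Perm.mul_apply, Perm.inv_eq_iff_eq, e' u (hOW hu), r1 u hu]

theorem Syl.exists_orb (h : Syl S τ) {r : ℕ} (h1 : 1 ≤ r) (hr : 2 ^ r ≤ Fintype.card α) :
    ∃ x, 2 ^ r ≤ (orb S x).card := by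
  obtain ⟨c, hc⟩ := (exists_with_cycleType_iff α (m := {2 ^ r})).2
    ⟨by simpa using hr, by simpa using Nat.le_self_pow (by omega) 2⟩
  obtain ⟨g, -, hg⟩ := h.syl.exists_conj_le (Q := zpowers c) (IsPGroup.of_card (n := r) (by
    rw [Nat.card_zpowers, ← lcm_cycleType, hc]; simp)) le_top
  have hm := hg (conj_mem_conjS.2 (mem_zpowers c))
  have ht : (g * c * g⁻¹).cycleType = {2 ^ r} := cycleType_conj.trans hc
  generalize g * c * g⁻¹ = c' at hm ht
  have hcy : c'.IsCycle := card_cycleType_eq_one.1 (by simp [ht])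
  obtain ⟨x, hx, -⟩ := id hcy
  refine ⟨x, ?_⟩
  rw [hcy.cycleType, Multiset.singleton_inj] at ht
  refine ht ▸ Finset.card_le_card fun y hy => ?_
  obtain ⟨i, hi⟩ := hcy.exists_pow_eq hx (mem_support.1 hy)
  exact mem_orb.2 ⟨_, S.pow_mem hm i, hi⟩

theorem dec_iff (hS : IsSylowIn 2 S ⊤) (h6 : 6 ≤ Fintype.card α) :
    (∃ A B, A ≠ ⊥ ∧ B ≠ ⊥ ∧ Dc S A B) ↔
      (2 ≤ Fintype.card α % 4 ∧ ∀ r : ℕ, 4 * (Fintype.card α / 4) ≠ 2 ^ r) := by
  by_cases hn : 2 ≤ Fintype.card α % 4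
  · obtain ⟨τ, h1, h2⟩ := exists_tau hS le_normalizer
    have h : Syl S τ := ⟨h1, hS, by simpa using h2⟩
    obtain ⟨f, hf1, hf⟩ := h.exists_fixB hn
    have hW := h.inv_support.sdiff (h.inv_pair hf)
    have hc : (τ.support \ {f, τ f}).card = 4 * (Fintype.card α / 4) := by
      rw [Finset.card_sdiff_of_subset (by simp [Finset.insert_subset_iff, hf1]),
        Finset.card_pair hf1.symm, h.card]
      omega
    constructor
    · rintro ⟨A, B, hA, hB, d⟩
      refine ⟨hn, fun r hr => ?_⟩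
      have h2r : 2 ≤ r := by
        by_contra hc
        have : r = 0 ∨ r = 1 := by omega
        rcases this with rfl | rfl <;> omega
      obtain ⟨x, hx⟩ := h.exists_orb (r := r) (by omega) (by omega)
      have hxW : x ∈ τ.support \ {f, τ f} := by
        by_contra hxW
        have : (orb S x).card ≤ 2 := by
          by_cases h3 : τ x = x
          · refine (Finset.card_le_one.2 fun a ha b hb => ?_).trans (by norm_num)
            obtain ⟨g, hg, rfl⟩ := mem_orb.1 ha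
            obtain ⟨g', hg', rfl⟩ := mem_orb.1 hb
            exact h.fix_eq (by rw [← h.comm hg, h3]) (by rw [← h.comm hg', h3])
          · refine (Finset.card_le_card (orb_subset (h.inv_pair hf) ?_)).trans Finset.card_le_two
            by_contra h4
            exact hxW (Finset.mem_sdiff.2 ⟨mem_support.2 h3, h4⟩)
        omega
      have e := Finset.eq_of_subset_of_card_le (orb_subset hW hxW) (by omega)
      refine d.not_trans h h6 hA hB (W := τ.support \ {f, τ f}) Finset.sdiff_subset (f := f)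
        (fun u h3 h4 => by by_contra h5; exact h4 (by simp [h3, not_or.1 h5])) fun u hu v hv => ?_
      obtain ⟨g, hg, rfl⟩ := mem_orb.1 (e ▸ hu)
      obtain ⟨g', hg', rfl⟩ := mem_orb.1 (e ▸ hv)
      exact ⟨g' * g⁻¹, S.mul_mem hg' (S.inv_mem hg), by simp⟩
    · rintro ⟨-, hr⟩
      obtain ⟨x, hx⟩ : (τ.support \ {f, τ f}).Nonempty := by rw [← Finset.card_pos]; omega
      obtain ⟨k, hk⟩ := card_orb hS.isPGroup x
      obtain ⟨y, hy, hy'⟩ := Finset.exists_mem_notMem_of_card_lt_card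
        (lt_of_le_of_ne (Finset.card_le_card (orb_subset hW hx)) (by rw [hk, hc]; exact (hr k).symm))
      exact h.exists_dc hf1 hf hx hy hy'
  · refine ⟨?_, fun h => absurd h.1 hn⟩
    rintro ⟨A, B, hA, hB, d⟩
    obtain ⟨ρ, hρ, h⟩ := exists_rho hS (by omega)
    exact (d.false_of_rho h h6 hA hB hρ rfl).elim

end CfsgLib.AltSyl
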